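import Cfsg.Agent.TAB.Eng.Cov
import Cfsg.Agent.TAB.Eng.Fib

/-!
# Counting with exact masses (helper16, TAB engine)

`card_comm` : the number of the elements with a given type which commute with an element of coprime order.
-/

set_option autoImplicit false

namespace Cfsg.Agent.TAB.Eng

open Cfsg

universe u

variable {G : Type u} [Group G] [Finite G] {D : Dat} {T : TD G D}

/-- the sum of the masses of the types with a property -/
def Dat.tot (D : Dat) (F : ℕ → Bool) : ℕ := ((List.range D.n).map fun t => if F t then D.cnt t else 0).sum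

theorem card_tot (hm : T.Mass) (F : ℕ → Bool) : Nat.card {g : G // F (T.ty g) = true} = D.tot F := by
  classical
  have := Fintype.ofFinite G
  rw [Nat.card_eq_fintype_card, Fintype.card_subtype, Finset.card_filter,
    sum_mass hm fun t => if F t = true then 1 else 0, Dat.tot, ← List.sum_toFinset _ List.nodup_range,
    List.toFinset_range]
  exact Finset.sum_congr rfl fun t _ => by split_ifs <;> simp

/-- `x` has the type `s` and the order dividing `a`; the elements `t` have types in `F` and orders dividing `b`;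
`k` is the idempotent exponent for `x` and `l` the one for `t` -/
theorem card_comm (hm : T.Mass) {s : ℕ} (hs : One T s) {x : G} (hx : T.ty x = s) (F : ℕ → Bool) {a b k l : ℕ}
    (ha : x ^ a = 1) (hb : ∀ t, F (T.ty t) = true → t ^ b = 1) (h1 : k % a = 1 % a) (h2 : b ∣ k) (h3 : a ∣ l) (h4 : l % b = 1 % b)
    (h5 : (k + l) % (a * b) = 1 % (a * b)) :
    D.cnt s * Nat.card {t : G // F (T.ty t) = true ∧ t * x = x * t} =
      D.tot fun u => F (D.pwf u l) && decide (D.ord u ∣ a * b) && D.pwf u k == s := by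
  have hxk : x ^ k = x := by rw [pow_eq_pow_mod k ha, h1, ← pow_eq_pow_mod 1 ha, pow_one]
  have hxl : x ^ l = 1 := by
    obtain ⟨c, rfl⟩ := h3
    rw [pow_mul, ha, one_pow]
  have h6 := card_fib (Q := fun g => F (T.ty (g ^ l)) = true ∧ g ^ (a * b) = 1)
    (fun g h hg => by rw [conj_pow, T.conj, conj_pow, hg.2, mul_one, mul_inv_cancel]; exact ⟨hg.1, rfl⟩) x k
  have h7 : Nat.card {y : G // IsConj x y} = D.cnt s := by
    rw [← hm.2 s (hx ▸ T.lt x)]
    exact Nat.card_congr (Equiv.subtypeEquivRight fun g =>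
      ⟨fun hg => (TD.ty_isConj hg).trans hx, fun hg => hs.conj hm hx hg⟩)
  rw [← card_tot hm, ← h7]
  refine Eq.trans (congrArg _ (Nat.card_congr ?_)) (h6.symm.trans (Nat.card_congr (Equiv.subtypeEquivRight fun g => ?_)))
  · have key : ∀ t, F (T.ty t) = true → t * x = x * t → (t * x) ^ l = t ∧ (t * x) ^ k = x := fun t ht hc => by
      obtain ⟨c, rfl⟩ := h2
      rw [(show Commute t x from hc).mul_pow, (show Commute t x from hc).mul_pow, hxl, hxk, pow_mul, hb t ht, one_pow,
        one_mul, mul_one, pow_eq_pow_mod l (hb t ht), h4, ← pow_eq_pow_mod 1 (hb t ht), pow_one]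
      exact ⟨rfl, rfl⟩
    refine ⟨fun t => ⟨t.1 * x, ⟨by rw [(key t t.2.1 t.2.2).1]; exact t.2.1, ?_⟩, (key t t.2.1 t.2.2).2⟩,
      fun g => ⟨g.1 ^ l, g.2.1.1, ?_⟩, fun t => Subtype.ext (key t t.2.1 t.2.2).1, fun g => Subtype.ext ?_⟩
    · rw [(show Commute t.1 x from t.2.2).mul_pow, pow_mul x, ha, one_pow, mul_one, mul_comm, pow_mul, hb t t.2.1,
        one_pow]
    · have h8 := ((Commute.refl g.1).pow_pow l k).eq
      rwa [g.2.2] at h8
    · have h8 := g.2.1.2
      have h9 : g.1 ^ l * g.1 ^ k = g.1 := by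
        rw [← pow_add, add_comm, pow_eq_pow_mod _ h8, h5, ← pow_eq_pow_mod 1 h8, pow_one]
      rwa [g.2.2] at h9
  · rw [Bool.and_eq_true, Bool.and_eq_true, beq_iff_eq, ← T.pow, ← T.pow, decide_eq_true_eq, ← T.ord,
      orderOf_dvd_iff_pow_eq_one]
    exact and_congr_right fun _ => ⟨fun hg => (TD.ty_isConj hg).trans hx, fun hg => hs.conj hm hx hg⟩

end Cfsg.Agent.TAB.Eng
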